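import Cfsg.Agent.H101.RealOdd
import Cfsg.Agent.KFacts.HN.Classes
import Cfsg.Agent.KFacts.HN.Cards
import Cfsg.Agent.HN.A12Group

/-!
# The Harada-Norton group: a real element of order 9 with centraliser of odd order

The 9-cycle `x` of `A12 < HN` is real. The centralisers of the involutions (two classes) have noncyclic Sylow
3-subgroups of order 9, so that no involution commutes with `x`.
-/

set_option autoImplicit false

namespace Cfsg.Agent.H101.RO.HNRow

open Subgroup Cfsg

/-! ### Groups without elements of order 9 -/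

/-- If `27 ∤ |G|` and `G` has two independent commuting elements of order 3, then `G` has no element of order 9. -/
theorem no_nine {G : Type*} [Group G] [Finite G] (h27 : ¬ 27 ∣ Nat.card G) {a b : G} (ha : orderOf a = 3)
    (hb : orderOf b = 3) (hab : Commute a b) (hn : b ∉ zpowers a) (x : G) : orderOf x ≠ 9 := by
  intro hx
  have : Fact (Nat.Prime 3) := ⟨Nat.prime_three⟩
  have h0 : Nat.card G ≠ 0 := Nat.card_pos.ne'
  have hfac : (Nat.card G).factorization 3 = 2 := by
    have h1 : 2 ≤ (Nat.card G).factorization 3 :=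
      (Nat.prime_three.pow_dvd_iff_le_factorization h0).1 (by
        rw [show 3 ^ 2 = 9 by norm_num, ← hx]; exact orderOf_dvd_natCard x)
    have h2 : ¬ 3 ≤ (Nat.card G).factorization 3 := fun h =>
      h27 ((Nat.prime_three.pow_dvd_iff_le_factorization h0).2 h)
    omega
  let P : Sylow 3 G := Sylow.ofCard (zpowers x) (by rw [hfac, Nat.card_zpowers, hx]; norm_num)
  have hpa : IsPGroup 3 (zpowers a) := IsPGroup.of_card (n := 1) (by rw [Nat.card_zpowers, ha, pow_one])
  have hpb : IsPGroup 3 (zpowers b) := IsPGroup.of_card (n := 1) (by rw [Nat.card_zpowers, hb, pow_one])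
  have hle : zpowers a ≤ normalizer ((zpowers b : Subgroup G) : Set G) := by
    rw [zpowers_le, mem_normalizer_iff]
    intro g
    have h1 : ∀ n : ℤ, a * b ^ n * a⁻¹ = b ^ n := fun n => by
      rw [(hab.zpow_right n).eq, mul_inv_cancel_right]
    constructor
    · rintro ⟨n, rfl⟩
      exact ⟨n, (h1 n).symm⟩
    · rintro ⟨n, hn'⟩
      have h2 : b ^ n = a * g * a⁻¹ := hn'
      refine ⟨n, ?_⟩
      show b ^ n = g
      rw [← h1 n] at h2
      exact mul_left_cancel (mul_right_cancel h2)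
  obtain ⟨R, hR⟩ := (hpa.to_sup_of_normal_right' hpb hle).exists_le_sylow
  obtain ⟨g, hg⟩ := MulAction.exists_smul_eq G R P
  have key : ∀ c ∈ (R : Subgroup G), g * c * g⁻¹ ∈ zpowers x := by
    intro c hc
    have h1 : g * c * g⁻¹ ∈ (g • R : Sylow 3 G) := by
      rw [← SetLike.mem_coe, Sylow.coe_smul, Set.mem_smul_set]
      exact ⟨c, hc, rfl⟩
    rw [hg] at h1
    exact h1
  have h3 : ∀ c : G, orderOf c = 3 → c ∈ (R : Subgroup G) → zpowers (g * c * g⁻¹) = zpowers (x ^ 3) := by
    intro c hc hcR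
    obtain ⟨n, hn'⟩ := mem_zpowers_iff.1 (key c hcR)
    have h4 : orderOf (g * c * g⁻¹) = 3 := by
      rw [← hc]
      exact orderOf_injective (MulAut.conj g).toMonoidHom (MulAut.conj g).injective c
    have h5 : orderOf (x ^ 3) = 3 := by
      rw [orderOf_pow_of_dvd (by norm_num) (by rw [hx]; norm_num), hx]
    have h6 : (9 : ℤ) ∣ n * 3 := by
      have : x ^ (n * 3) = 1 := by
        rw [zpow_mul, hn']
        have h8 := pow_orderOf_eq_one (g * c * g⁻¹)
        rw [h4] at h8
        exact_mod_cast h8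
      have h7 := orderOf_dvd_iff_zpow_eq_one.2 this
      rw [hx] at h7
      exact_mod_cast h7
    obtain ⟨k, hk⟩ : (3 : ℤ) ∣ n := by omega
    have hle' : zpowers (g * c * g⁻¹) ≤ zpowers (x ^ 3) := by
      rw [zpowers_le, ← hn', hk]
      refine ⟨k, ?_⟩
      show (x ^ 3) ^ k = x ^ (3 * k)
      rw [zpow_mul]
      norm_cast
    exact Subgroup.eq_of_le_of_card_ge hle' (by rw [Nat.card_zpowers, Nat.card_zpowers, h4, h5])
  have haR : a ∈ (R : Subgroup G) := hR (mem_sup_left (mem_zpowers a))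
  have hbR : b ∈ (R : Subgroup G) := hR (mem_sup_right (mem_zpowers b))
  have h4 : g * b * g⁻¹ ∈ zpowers (g * a * g⁻¹) := by
    rw [h3 a ha haR, ← h3 b hb hbR]
    exact mem_zpowers _
  obtain ⟨n, hn'⟩ := mem_zpowers_iff.1 h4
  apply hn
  rw [conj_zpow] at hn'
  exact ⟨n, mul_left_cancel (mul_right_cancel hn')⟩

/-- A homomorphism whose kernel has order prime to 3 preserves the elements of order 9. -/
theorem orderOf_map_nine {G H : Type*} [Group G] [Finite G] [Group H] (f : G →* H) (hf : ¬ 3 ∣ Nat.card f.ker) {x : G}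
    (hx : orderOf x = 9) : orderOf (f x) = 9 := by
  have : Fact (Nat.Prime 3) := ⟨Nat.prime_three⟩
  have h1 : ¬ (f x) ^ 3 ^ 1 = 1 := by
    intro h
    apply hf
    have h2 : x ^ 3 ∈ f.ker := by rw [MonoidHom.mem_ker, map_pow]; simpa using h
    have h3 : orderOf (x ^ 3) = 3 := by
      rw [orderOf_pow_of_dvd (by norm_num) (by rw [hx]; norm_num), hx]
    have h4 := orderOf_dvd_natCard (⟨x ^ 3, h2⟩ : f.ker)
    rwa [Subgroup.orderOf_mk, h3] at h4
  have h2 : (f x) ^ 3 ^ (1 + 1) = 1 := by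
    rw [← map_pow, show 3 ^ (1 + 1) = 9 by norm_num, ← hx, pow_orderOf_eq_one, map_one]
  have h3 := orderOf_eq_prime_pow h1 h2
  rw [h3]
  norm_num

/-! ### Elements of `A12` -/

/-- 9-cycle -/
def p9 : Equiv.Perm (Fin 12) where
  toFun := ![1, 2, 3, 4, 5, 6, 7, 8, 0, 9, 10, 11]
  invFun := ![8, 0, 1, 2, 3, 4, 5, 6, 7, 9, 10, 11]
  left_inv := by decide
  right_inv := by decide

/-- inverts the 9-cycle -/
def pr : Equiv.Perm (Fin 12) where
  toFun := ![0, 8, 7, 6, 5, 4, 3, 2, 1, 9, 10, 11]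
  invFun := ![0, 8, 7, 6, 5, 4, 3, 2, 1, 9, 10, 11]
  left_inv := by decide
  right_inv := by decide

/-- a square root of `pr` -/
def pq : Equiv.Perm (Fin 12) where
  toFun := ![0, 7, 1, 5, 3, 6, 4, 8, 2, 9, 10, 11]
  invFun := ![0, 2, 8, 4, 6, 3, 5, 1, 7, 9, 10, 11]
  left_inv := by decide
  right_inv := by decide

/-- `(0 1)(2 3)` -/
def pt : Equiv.Perm (Fin 12) where
  toFun := ![1, 0, 3, 2, 4, 5, 6, 7, 8, 9, 10, 11]
  invFun := ![1, 0, 3, 2, 4, 5, 6, 7, 8, 9, 10, 11]
  left_inv := by decide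
  right_inv := by decide

/-- `(0 2 1 3)` -/
def pu : Equiv.Perm (Fin 12) where
  toFun := ![2, 3, 1, 0, 4, 5, 6, 7, 8, 9, 10, 11]
  invFun := ![3, 2, 0, 1, 4, 5, 6, 7, 8, 9, 10, 11]
  left_inv := by decide
  right_inv := by decide

/-- `(4 5 6)` -/
def pa : Equiv.Perm (Fin 12) where
  toFun := ![0, 1, 2, 3, 5, 6, 4, 7, 8, 9, 10, 11]
  invFun := ![0, 1, 2, 3, 6, 4, 5, 7, 8, 9, 10, 11]
  left_inv := by decide
  right_inv := by decide

/-- `(7 8 9)` -/
def pb : Equiv.Perm (Fin 12) where
  toFun := ![0, 1, 2, 3, 4, 5, 6, 8, 9, 7, 10, 11]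
  invFun := ![0, 1, 2, 3, 4, 5, 6, 9, 7, 8, 10, 11]
  left_inv := by decide
  right_inv := by decide

/-- 7-cycle -/
def p7 : Equiv.Perm (Fin 12) where
  toFun := ![0, 1, 2, 3, 5, 6, 7, 8, 9, 10, 4, 11]
  invFun := ![0, 1, 2, 3, 10, 4, 5, 6, 7, 8, 9, 11]
  left_inv := by decide
  right_inv := by decide

theorem mem_of_odd {σ : Equiv.Perm (Fin 12)} {n : ℕ} (hn : Odd n) (h : σ ^ n = 1) :
    σ ∈ alternatingGroup (Fin 12) := by
  rw [Equiv.Perm.mem_alternatingGroup]
  have h1 : (Equiv.Perm.sign σ) ^ n = 1 := by rw [← map_pow, h, map_one]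
  rcases Int.units_eq_one_or (Equiv.Perm.sign σ) with h2 | h2
  · exact h2
  · rw [h2, hn.neg_one_pow] at h1
    exact absurd h1 (by decide)

theorem mem_of_sq {σ τ : Equiv.Perm (Fin 12)} (h : τ * τ = σ) : σ ∈ alternatingGroup (Fin 12) := by
  rw [Equiv.Perm.mem_alternatingGroup, ← h, map_mul]
  exact Int.units_mul_self _

theorem p9_pow : p9 ^ 9 = 1 := by decide +kernel
theorem p9_ne : p9 ^ 3 ≠ 1 := by decide +kernel
theorem pq_sq : pq * pq = pr := by decide +kernel
theorem pu_sq : pu * pu = pt := by decide +kernel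
theorem inv9 : pr * p9 = p9⁻¹ * pr := by decide +kernel
theorem pt_sq : pt * pt = 1 := by decide +kernel
theorem pt_ne : pt ≠ 1 := by decide +kernel
theorem pa_cube : pa ^ 3 = 1 := by decide +kernel
theorem pb_cube : pb ^ 3 = 1 := by decide +kernel
theorem pa_ne : pa ≠ 1 := by decide +kernel
theorem pb_ne : pb ≠ 1 := by decide +kernel
theorem p7_pow : p7 ^ 7 = 1 := by decide +kernel
theorem p7_ne : p7 ≠ 1 := by decide +kernel
theorem comm_ab : pa * pb = pb * pa := by decide +kernel
theorem comm_ta : pa * pt = pt * pa := by decide +kernel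
theorem comm_tb : pb * pt = pt * pb := by decide +kernel
theorem comm_t7 : p7 * pt = pt * p7 := by decide +kernel
theorem pb_pa : pb ≠ pa := by decide +kernel
theorem pb_pa2 : pb ≠ pa ^ 2 := by decide +kernel

/-- the elements of `A12` -/
def A9 : alternatingGroup (Fin 12) := ⟨p9, mem_of_odd (n := 9) (by decide) p9_pow⟩
/-- the elements of `A12` -/
def AR : alternatingGroup (Fin 12) := ⟨pr, mem_of_sq pq_sq⟩
/-- the elements of `A12` -/
def AT : alternatingGroup (Fin 12) := ⟨pt, mem_of_sq pu_sq⟩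
/-- the elements of `A12` -/
def AA : alternatingGroup (Fin 12) := ⟨pa, mem_of_odd (n := 3) (by decide) pa_cube⟩
/-- the elements of `A12` -/
def AB : alternatingGroup (Fin 12) := ⟨pb, mem_of_odd (n := 3) (by decide) pb_cube⟩
/-- the elements of `A12` -/
def A7 : alternatingGroup (Fin 12) := ⟨p7, mem_of_odd (n := 7) (by decide) p7_pow⟩

theorem order_A9 : orderOf A9 = 9 := by
  have : Fact (Nat.Prime 3) := ⟨Nat.prime_three⟩
  have h1 : ¬ A9 ^ 3 ^ 1 = 1 := fun h => p9_ne (congrArg Subtype.val h)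
  have h2 : A9 ^ 3 ^ (1 + 1) = 1 := Subtype.ext p9_pow
  rw [orderOf_eq_prime_pow h1 h2]
  norm_num

theorem order_AA : orderOf AA = 3 :=
  orderOf_eq_prime (hp := ⟨Nat.prime_three⟩) (Subtype.ext pa_cube) fun h => pa_ne (congrArg Subtype.val h)

theorem order_AB : orderOf AB = 3 :=
  orderOf_eq_prime (hp := ⟨Nat.prime_three⟩) (Subtype.ext pb_cube) fun h => pb_ne (congrArg Subtype.val h)

theorem order_AT : orderOf AT = 2 :=
  orderOf_eq_prime (hp := ⟨Nat.prime_two⟩) (by rw [pow_two]; exact Subtype.ext pt_sq) fun h => pt_ne (congrArg Subtype.val h)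

theorem order_A7 : orderOf A7 = 7 :=
  orderOf_eq_prime (hp := ⟨by norm_num⟩) (Subtype.ext p7_pow) fun h => p7_ne (congrArg Subtype.val h)

theorem AB_notMem : AB ∉ zpowers AA := by
  rintro ⟨n, hn⟩
  have hn' : AA ^ n = AB := hn
  have h1 : AA ^ n = AA ^ (n % 3) := by
    have h2 : AA ^ (3 : ℤ) = 1 := by
      have := pow_orderOf_eq_one AA
      rw [order_AA] at this
      exact_mod_cast this
    conv_lhs => rw [← Int.mul_ediv_add_emod n 3, zpow_add, zpow_mul, h2, one_zpow, one_mul]
  rw [h1] at hn'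
  have h3 : n % 3 = 0 ∨ n % 3 = 1 ∨ n % 3 = 2 := by omega
  rcases h3 with h3 | h3 | h3 <;> rw [h3] at hn'
  · rw [zpow_zero] at hn'
    exact pb_ne (congrArg Subtype.val hn').symm
  · rw [zpow_one] at hn'
    exact pb_pa (congrArg Subtype.val hn').symm
  · exact pb_pa2 (congrArg Subtype.val hn').symm

/-! ### The group -/

open Cfsg.Agent.KFacts.HN.Classes Cfsg.Agent.KFacts.HN Cfsg.Agent.HN.XInst Cfsg.Agent.HN.XWords
open Cfsg.Agent.Lib.AltCarmichael (cyc cyc_mem)

theorem card_cent_conj {G : Type*} [Group G] {u v : G} (h : IsConj u v) :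
    Nat.card (centralizer ({u} : Set G)) = Nat.card (centralizer ({v} : Set G)) := by
  obtain ⟨c, rfl⟩ := isConj_iff.1 h
  refine Nat.card_congr ((MulAut.conj c).toEquiv.subtypeEquiv fun a => ?_)
  rw [mem_centralizer_singleton_iff, mem_centralizer_singleton_iff]
  show a * u = u * a ↔ c * a * c⁻¹ * (c * u * c⁻¹) = c * u * c⁻¹ * (c * a * c⁻¹)
  constructor
  · intro h
    calc c * a * c⁻¹ * (c * u * c⁻¹) = c * (a * u) * c⁻¹ := by group
      _ = c * (u * a) * c⁻¹ := by rw [h]
      _ = _ := by group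
  · intro h
    calc a * u = c⁻¹ * (c * a * c⁻¹ * (c * u * c⁻¹)) * c := by group
      _ = c⁻¹ * (c * u * c⁻¹ * (c * a * c⁻¹)) * c := by rw [h]
      _ = _ := by group

theorem exists_of_conj {G : Type*} [Group G] {u v x : G} (h : IsConj u v) (hx : u * x = x * u) :
    ∃ y : G, orderOf y = orderOf x ∧ v * y = y * v := by
  obtain ⟨c, rfl⟩ := isConj_iff.1 h
  refine ⟨c * x * c⁻¹, orderOf_injective (MulAut.conj c).toMonoidHom (MulAut.conj c).injective x, ?_⟩
  calc c * u * c⁻¹ * (c * x * c⁻¹) = c * (u * x) * c⁻¹ := by group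
    _ = c * (x * u) * c⁻¹ := by rw [hx]
    _ = _ := by group

/-- no element of order 9 commutes with the 2-central involution -/
theorem no_W0 {x : Spor.HN} (hx : orderOf x = 9) (hc : W0 * x = x * W0) : False := by
  have := finite_HN
  have hmem : x ∈ PP := mem_centralizer_singleton_iff.2 hc.symm
  have h1 : orderOf (⟨x, hmem⟩ : PP) = 9 := by rw [Subgroup.orderOf_mk, hx]
  have h2 : orderOf (ρ ⟨x, hmem⟩) = 9 := orderOf_map_nine ρ (by rw [card_ker]; norm_num) h1
  have hfin : Finite Lq := Nat.finite_of_card_ne_zero (by rw [card_Lq]; norm_num)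
  let c : A5 := ⟨cyc 3 0, cyc_mem 3 0 (by norm_num)⟩
  have hc3 : c ^ 3 = 1 := by
    apply Subtype.ext
    show (cyc 3 0) ^ 3 = 1
    decide +kernel
  have hc1 : c ≠ 1 := fun h => by
    have h1 : cyc 3 0 = 1 := congrArg Subtype.val h
    revert h1
    decide +kernel
  have hco : orderOf c = 3 := orderOf_eq_prime (hp := ⟨Nat.prime_three⟩) hc3 hc1
  refine no_nine (G := Lq) (by rw [card_Lq]; norm_num) (a := φA c) (b := φB c)
    (by rw [orderOf_injective φA φA_inj, hco]) (by rw [orderOf_injective φB φB_inj, hco]) (comm_AB c c) ?_ _ h2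
  rintro ⟨n, hn⟩
  have h3 : φA (c ^ n) = φB c := by rw [map_zpow]; exact hn
  exact hc1 (A_inter_B h3).2

theorem model : RealOdd Spor.HN := by
  have := finite_HN
  have hs : IsSimpleGroup Spor.HN := Cfsg.Agent.S1701.result.1
  obtain ⟨K, ⟨e⟩⟩ := Cfsg.Agent.HN.A12Group.exists_alternating
  let f : alternatingGroup (Fin 12) →* Spor.HN := K.subtype.comp e.symm.toMonoidHom
  have hf : Function.Injective f := fun a b h => e.symm.injective (Subtype.ext h)
  have ho : ∀ a, orderOf (f a) = orderOf a := fun a => orderOf_injective f hf a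
  -- the class of the double transposition
  have hT : IsConj (Cfsg.Agent.HN.NormalH.ψ Cfsg.Agent.HN.H0Basic.τ) (f AT) := by
    rcases inv_class (u := f AT) (by rw [ho, order_AT]) with h | h
    · exact h.symm
    · exfalso
      have h1 := card_cent_conj h
      rw [PCard.card_centralizer] at h1
      have h2 : f A7 ∈ centralizer ({f AT} : Set Spor.HN) := by
        rw [mem_centralizer_singleton_iff, ← map_mul, ← map_mul]
        exact congrArg f (Subtype.ext comm_t7)
      have h3 := orderOf_dvd_natCard (⟨f A7, h2⟩ : centralizer ({f AT} : Set Spor.HN))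
      rw [Subgroup.orderOf_mk, ho, order_A7, h1] at h3
      norm_num at h3
  have hcard : Nat.card (centralizer ({f AT} : Set Spor.HN)) = 177408000 := by
    rw [← card_cent_conj hT]
    exact card_centralizer_τ
  have hno : ∀ x : Spor.HN, orderOf x = 9 → f AT * x = x * f AT → False := by
    intro x hx hc
    have hcx : x ∈ centralizer ({f AT} : Set Spor.HN) := mem_centralizer_singleton_iff.2 hc.symm
    have hca : f AA ∈ centralizer ({f AT} : Set Spor.HN) := by
      rw [mem_centralizer_singleton_iff, ← map_mul, ← map_mul]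
      exact congrArg f (Subtype.ext comm_ta)
    have hcb : f AB ∈ centralizer ({f AT} : Set Spor.HN) := by
      rw [mem_centralizer_singleton_iff, ← map_mul, ← map_mul]
      exact congrArg f (Subtype.ext comm_tb)
    refine no_nine (G := centralizer ({f AT} : Set Spor.HN)) (by rw [hcard]; norm_num) (a := ⟨f AA, hca⟩)
      (b := ⟨f AB, hcb⟩) (by rw [Subgroup.orderOf_mk, ho, order_AA]) (by rw [Subgroup.orderOf_mk, ho, order_AB]) ?_ ?_
      ⟨x, hcx⟩ (by rw [Subgroup.orderOf_mk, hx])
    · apply Subtype.ext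
      show f AA * f AB = f AB * f AA
      rw [← map_mul, ← map_mul]
      exact congrArg f (Subtype.ext comm_ab)
    · rintro ⟨n, hn⟩
      have h1 : f AA ^ n = f AB := congrArg Subtype.val hn
      rw [← map_zpow] at h1
      exact AB_notMem ⟨n, hf h1⟩
  refine RealOdd.of_elts (p := 3) (k := 2) (x := f A9) (y := f AR) Nat.prime_three (by norm_num) (by norm_num)
    (by rw [ho, order_A9]; norm_num) ?_ ?_
  · rw [mul_inv_eq_iff_eq_mul, ← map_mul, ← map_inv, ← map_mul]
    exact congrArg f (Subtype.ext inv9)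
  · intro u hu hc
    rcases inv_class hu with h | h
    · obtain ⟨y, hy1, hy2⟩ := exists_of_conj (h.trans hT) hc
      exact hno y (by rw [hy1, ho, order_A9]) hy2
    · obtain ⟨y, hy1, hy2⟩ := exists_of_conj h hc
      exact no_W0 (by rw [hy1, ho, order_A9]) hy2

/-- **The Harada-Norton group.** -/
theorem hn {K : Type*} [Group K] (h : Spor.IsoHN K) : RealOdd K := by
  obtain ⟨e⟩ := h
  exact RealOdd.congr e.symm model

end Cfsg.Agent.H101.RO.HNRow
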